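import Cfsg.Agent.H209.EPX.Defs
import Cfsg.Agent.H284.EP.TForm
import Cfsg.Agent.H56.Exc.Big

/-!
# S5745, cell `g2_spor`: abstract tools (helper444)

* `cent_of_cyc` : centralizers of elements of order `r` from one cyclic subgroup (Sylow);
* `comm_of_cyc` : the end of the argument (PS): `u` normalises `⟨y⟩`, `x⁻¹ u x ∈ A`, cyclic centralizers: `u` commutes
  with `y`;
* `ept_of_ep` : `EP H` gives `EPT H Γ` for a simple group;
* `EPS.emb` : the embedding `T →* G`.
-/

set_option autoImplicit false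
set_option linter.unusedSectionVars false

namespace Cfsg.Agent.H444.G2S

open Subgroup MulAction Cfsg.Agent.H284 Cfsg.Agent.H209.EPX

/-- A cyclic subgroup `T` of order `m`, divisible by `r`, containing the centralizers of its elements of order `r`. -/
def Cyc (G : Type*) [Group G] (r m : ℕ) : Prop :=
  ∃ T : Subgroup G, IsCyclic ↥T ∧ Nat.card ↥T = m ∧ r ∣ Nat.card ↥T ∧ ∀ y ∈ T, orderOf y = r → centralizer {y} ≤ T

theorem comm_of_isCyclic {G : Type*} [Group G] {C : Subgroup G} (hC : IsCyclic ↥C) {a b : G} (ha : a ∈ C) (hb : b ∈ C) :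
    a * b = b * a := by
  obtain ⟨g, hg⟩ := hC.exists_generator
  obtain ⟨i, hi⟩ := Subgroup.mem_zpowers_iff.1 (hg ⟨a, ha⟩)
  obtain ⟨j, hj⟩ := Subgroup.mem_zpowers_iff.1 (hg ⟨b, hb⟩)
  have h1 : (g : G) ^ i = a := by rw [← Subgroup.coe_zpow, hi]
  have h2 : (g : G) ^ j = b := by rw [← Subgroup.coe_zpow, hj]
  rw [← h1, ← h2, ← zpow_add, ← zpow_add, add_comm]

theorem cent_conj {G : Type*} [Group G] (g z : G) :
    (centralizer {z}).map (MulAut.conj g).toMonoidHom = centralizer {g * z * g⁻¹} := by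
  ext w
  constructor
  · rintro ⟨c, hc, rfl⟩
    have h1 : c * z = z * c := Subgroup.mem_centralizer_singleton_iff.1 hc
    apply Subgroup.mem_centralizer_singleton_iff.2
    show (g * c * g⁻¹) * (g * z * g⁻¹) = (g * z * g⁻¹) * (g * c * g⁻¹)
    calc (g * c * g⁻¹) * (g * z * g⁻¹) = g * (c * z) * g⁻¹ := by group
      _ = g * (z * c) * g⁻¹ := by rw [h1]
      _ = _ := by group
  · intro hw
    have h1 : w * (g * z * g⁻¹) = (g * z * g⁻¹) * w := Subgroup.mem_centralizer_singleton_iff.1 hw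
    refine ⟨g⁻¹ * w * g, Subgroup.mem_centralizer_singleton_iff.2 ?_, ?_⟩
    · calc g⁻¹ * w * g * z = g⁻¹ * (w * (g * z * g⁻¹)) * g := by group
        _ = g⁻¹ * ((g * z * g⁻¹) * w) * g := by rw [h1]
        _ = z * (g⁻¹ * w * g) := by group
    · show g * (g⁻¹ * w * g) * g⁻¹ = w
      group

theorem cent_of_cyc {G : Type*} [Group G] [Finite G] {r m : ℕ} (hr : r.Prime) (h : Cyc G r m)
    (h2 : ¬ r ^ 2 ∣ Nat.card G) {y : G} (hy : orderOf y = r) :
    IsCyclic ↥(centralizer {y}) ∧ Nat.card ↥(centralizer {y}) = m := by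
  have : Fact r.Prime := ⟨hr⟩
  obtain ⟨T, hT, hm, hrT, hc⟩ := h
  obtain ⟨y0, hy0⟩ := exists_prime_orderOf_dvd_card' r hrT
  have hy0' : orderOf (y0 : G) = r := by rw [Subgroup.orderOf_coe, hy0]
  have hfac : (Nat.card G).factorization r = 1 := by
    have hne : Nat.card G ≠ 0 := Nat.card_pos.ne'
    have h3 : 1 ≤ (Nat.card G).factorization r := (hr.dvd_iff_one_le_factorization hne).1 (hy ▸ orderOf_dvd_natCard y)
    by_contra h4
    exact h2 ((hr.pow_dvd_iff_le_factorization hne).2 (by omega))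
  let P : Sylow r G := Sylow.ofCard (Subgroup.zpowers (y0 : G)) (by rw [Nat.card_zpowers, hy0', hfac, pow_one])
  let Q : Sylow r G := Sylow.ofCard (Subgroup.zpowers y) (by rw [Nat.card_zpowers, hy, hfac, pow_one])
  obtain ⟨g, hg⟩ := MulAction.exists_smul_eq G P Q
  have h3 : y ∈ ((g • P : Sylow r G) : Subgroup G) := by
    rw [hg]
    exact Subgroup.mem_zpowers y
  rw [Sylow.coe_subgroup_smul, Subgroup.mem_pointwise_smul_iff_inv_smul_mem] at h3
  have h4 : g⁻¹ * y * g ∈ Subgroup.zpowers (y0 : G) := by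
    have h5 : (MulAut.conj g)⁻¹ • y = g⁻¹ * y * g := by
      rw [← map_inv, MulAut.smul_def, MulAut.conj_apply, inv_inv]
    rw [← h5]
    exact h3
  have h5 : g⁻¹ * y * g ∈ T := (Subgroup.zpowers_le.2 y0.2) h4
  have h6 : orderOf (g⁻¹ * y * g) = r := by
    have h7 := MulEquiv.orderOf_eq (MulAut.conj g⁻¹) y
    rw [MulAut.conj_apply, inv_inv] at h7
    rw [h7, hy]
  have h7 : centralizer {g⁻¹ * y * g} = T := le_antisymm (hc _ h5 h6)
    (fun t ht => Subgroup.mem_centralizer_singleton_iff.2 (comm_of_isCyclic hT ht h5))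
  have h8 : T.map (MulAut.conj g).toMonoidHom = centralizer {y} := by
    rw [← h7, cent_conj]
    have : g * (g⁻¹ * y * g) * g⁻¹ = y := by group
    rw [this]
  have e := T.equivMapOfInjective (MulAut.conj g).toMonoidHom (MulAut.conj g).injective
  rw [← h8]
  exact ⟨e.isCyclic.1 hT, by rw [← Nat.card_congr e.toEquiv, hm]⟩

/-- The end of (PS). -/
theorem comm_of_cyc {G : Type*} [Group G] [Finite G] {A : Subgroup G} {x y u : G} {s : ℕ} (hs : s.Prime)
    (hCy : ∀ y' : G, orderOf y' = orderOf y → IsCyclic ↥(centralizer {y'})) (hCx : IsCyclic ↥(centralizer {x}))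
    (hx : orderOf x = s) (hxy : x * y = y * x) (hsA : ¬ s ∣ Nat.card (A ⊓ centralizer {y} : Subgroup G))
    (hu : u ∈ A) (hux : x⁻¹ * u * x ∈ A) {k : ℕ} (huy : u * y * u⁻¹ = y ^ k) : u * y = y * u := by
  have hz : Subgroup.zpowers (y ^ k) = Subgroup.zpowers y := by
    apply Subgroup.eq_of_le_of_card_ge
    · rw [Subgroup.zpowers_le]
      exact Subgroup.pow_mem _ (Subgroup.mem_zpowers y) k
    · rw [Nat.card_zpowers, Nat.card_zpowers, ← huy]
      have h7 := MulEquiv.orderOf_eq (MulAut.conj u) y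
      rw [MulAut.conj_apply] at h7
      rw [h7]
  have hcy : ∀ c : G, c * y ^ k = y ^ k * c → c * y = y * c := by
    intro c hc
    have h1 : y ∈ Subgroup.zpowers (y ^ k) := by rw [hz]; exact Subgroup.mem_zpowers y
    obtain ⟨j, hj⟩ := Subgroup.mem_zpowers_iff.1 h1
    have h2 : Commute c (y ^ k) := hc
    have h3 := (h2.zpow_right j).eq
    rwa [hj] at h3
  have hC := hCy y rfl
  have hxC : x ∈ centralizer {y} := Subgroup.mem_centralizer_singleton_iff.2 hxy
  have hx' : u * x * u⁻¹ ∈ centralizer {y} := by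
    apply Subgroup.mem_centralizer_singleton_iff.2
    apply hcy
    rw [← huy]
    calc u * x * u⁻¹ * (u * y * u⁻¹) = u * (x * y) * u⁻¹ := by group
      _ = u * (y * x) * u⁻¹ := by rw [hxy]
      _ = _ := by group
  have ho : orderOf (u * x * u⁻¹) = orderOf x := by
    have h7 := MulEquiv.orderOf_eq (MulAut.conj u) x
    rwa [MulAut.conj_apply] at h7
  have h1 : u * x * u⁻¹ ∈ Subgroup.zpowers x :=
    Cfsg.Agent.H56.Exc.mem_zpowers_of_cyclic hC hxC hx' (by rw [ho])
  have h2 : x⁻¹ * (u * x * u⁻¹) ∈ A ⊓ centralizer {y} := by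
    refine Subgroup.mem_inf.2 ⟨?_, (centralizer {y}).mul_mem ((centralizer {y}).inv_mem hxC) hx'⟩
    have e : x⁻¹ * (u * x * u⁻¹) = x⁻¹ * u * x * u⁻¹ := by group
    rw [e]
    exact A.mul_mem hux (A.inv_mem hu)
  have h3 : x⁻¹ * (u * x * u⁻¹) ∈ Subgroup.zpowers x := mul_mem (inv_mem (Subgroup.mem_zpowers x)) h1
  have h4 : x⁻¹ * (u * x * u⁻¹) = 1 := by
    by_contra hne
    apply hsA
    have h5 : orderOf (x⁻¹ * (u * x * u⁻¹)) ∣ s := by
      rw [← hx]
      exact orderOf_dvd_of_mem_zpowers h3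
    rcases (Nat.dvd_prime hs).1 h5 with h6 | h6
    · exact absurd (orderOf_eq_one_iff.1 h6) hne
    · rw [← h6, ← Subgroup.orderOf_mk _ h2]
      exact orderOf_dvd_natCard _
  have h5 : u * x = x * u := by
    have h6 : u * x * u⁻¹ = x := (inv_mul_eq_one.1 h4).symm
    calc u * x = u * x * u⁻¹ * u := by group
      _ = x * u := by rw [h6]
  exact comm_of_isCyclic hCx (Subgroup.mem_centralizer_singleton_iff.2 h5)
    (Subgroup.mem_centralizer_singleton_iff.2 hxy.symm)

/-- an element of order `s` commuting with `y` -/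
theorem exists_comm {G : Type*} [Group G] [Finite G] {y : G} {s : ℕ} (hs : s.Prime)
    (h : s ∣ Nat.card ↥(centralizer {y})) : ∃ x : G, orderOf x = s ∧ x * y = y * x := by
  have : Fact s.Prime := ⟨hs⟩
  obtain ⟨x, hx⟩ := exists_prime_orderOf_dvd_card' s h
  exact ⟨x, by rw [Subgroup.orderOf_coe, hx], Subgroup.mem_centralizer_singleton_iff.1 x.2⟩

/-- the `T`-form for a simple group -/
theorem ept_of_ep {G : Type*} [Group G] [Finite G] [IsSimpleGroup G] (hcomm : ¬ ∀ a b : G, a * b = b * a)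
    {H : Subgroup G} (h : EP H) : EPT H (H.map (MulAut.conj : G →* MulAut G)) := by
  have hs : IsSimpleGroup (⊤ : Subgroup G) := (Subgroup.topEquiv (G := G)).isSimpleGroup
  have hcent : Subgroup.centralizer ((⊤ : Subgroup G) : Set G) = ⊥ := by
    have h1 : Subgroup.centralizer ((⊤ : Subgroup G) : Set G) = center G := by
      rw [Subgroup.coe_top, Subgroup.centralizer_univ]
    rw [h1]
    rcases (inferInstance : (center G).Normal).eq_bot_or_eq_top with h2 | h2
    · exact h2
    · exfalso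
      apply hcomm
      intro a b
      have : b ∈ center G := by rw [h2]; exact mem_top _
      exact (mem_center_iff.1 this a)
  have hsol : Group.IsSolvable (G ⧸ (⊤ : Subgroup G)) := by
    have : Subsingleton (G ⧸ (⊤ : Subgroup G)) := QuotientGroup.subsingleton_quotient_top
    infer_instance
  have h1 := h.toEPT (T := ⊤) (Subgroup.topEquiv (G := G)) hs
    (fun h2 => hcomm fun a b => h2 a (mem_top _) b (mem_top _)) hcent hsol
  have e1 : TA (Subgroup.topEquiv (G := G)) H = H := by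
    ext q
    rfl
  have e2 : toAut (Subgroup.topEquiv (G := G)) = (MulAut.conj : G →* MulAut G) := by
    ext g q
    have := toG_toAut (Subgroup.topEquiv (G := G)) g q
    exact this
  rw [e1, e2] at h1
  exact h1

section EPS

variable {G : Type*} [Group G] {H N : Subgroup G} {T : Type} [Group T] {e : N ≃* (Fin 1 → T)}

/-- `N ≃* T` -/
noncomputable def eN (e : N ≃* (Fin 1 → T)) : N ≃* T := e.trans (MulEquiv.piUnique fun _ : Fin 1 => T)

/-- `T →* G` -/
noncomputable def emb (e : N ≃* (Fin 1 → T)) : T →* G := N.subtype.comp (eN e).symm.toMonoidHom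

theorem emb_inj (e : N ≃* (Fin 1 → T)) : Function.Injective (emb e) :=
  fun _ _ h => (eN e).symm.injective (Subtype.ext h)

variable (h : EPS H N e)

include h

theorem emb_ne_one : emb e ≠ 1 := by
  intro h1
  obtain ⟨a, b, hab⟩ := h.nab
  apply hab
  apply emb_inj e
  rw [h1, MonoidHom.one_apply, MonoidHom.one_apply]

theorem G_nab : ¬ ∀ a b : G, a * b = b * a := by
  intro hG
  obtain ⟨a, b, hab⟩ := h.nab
  apply hab
  apply emb_inj e
  rw [map_mul, map_mul, hG]

theorem no_abelian : ∀ K : Subgroup G, K ≤ H → (∀ a ∈ H, ∀ k ∈ K, a * k * a⁻¹ ∈ K) →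
    (∀ a ∈ K, ∀ b ∈ K, a * b = b * a) → K = ⊥ := by
  intro K h1 h2 h3
  by_contra hne
  have h4 := h.least K ⟨h1, h2⟩ hne
  obtain ⟨a, b, hab⟩ := h.nab
  apply hab
  apply emb_inj e
  rw [map_mul, map_mul]
  exact h3 _ (h4 ((eN e).symm a).2) _ (h4 ((eN e).symm b).2)

theorem cent_H : ∀ a ∈ H, (∀ n ∈ N, a * n = n * a) → a = 1 := by
  intro a _ hc
  have h1 : a ∈ centralizer (N : Set G) := Subgroup.mem_centralizer_iff.2 fun n hn => (hc n hn).symm
  rw [h.cent, mem_bot] at h1
  exact h1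

theorem card_H_dvd [Finite G] : Nat.card H ∣ Nat.card (MulAut T) := by
  have hN : (N.subgroupOf H).Normal := ⟨fun n hn a => h.nrm a a.2 n hn⟩
  let eN' : N.subgroupOf H ≃* T := (Subgroup.subgroupOfEquivOfLe h.le).trans (eN e)
  have hinj : Function.Injective (MulAut.conjNormal (H := N.subgroupOf H)) := by
    rw [injective_iff_map_eq_one]
    intro a ha
    apply Subtype.ext
    apply cent_H h a a.2
    intro n hn
    have h2 : MulAut.conjNormal a (⟨⟨n, h.le hn⟩, hn⟩ : N.subgroupOf H) = ⟨⟨n, h.le hn⟩, hn⟩ := by rw [ha]; rfl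
    have h3 : (a : G) * n * (a : G)⁻¹ = n := congrArg (fun z : N.subgroupOf H => ((z : H) : G)) h2
    exact mul_inv_eq_iff_eq_mul.1 h3
  have hfin : Finite (MulAut T) := by
    have : Finite T := Finite.of_injective _ (emb_inj e)
    infer_instance
  rw [← Nat.card_congr (MulAut.congr eN').toEquiv]
  have : Finite (MulAut (N.subgroupOf H)) := inferInstance
  exact Subgroup.card_dvd_of_injective _ hinj

theorem card_T_dvd [Finite G] : Nat.card T ∣ Nat.card H := by
  rw [← Nat.card_congr (eN e).toEquiv]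
  exact Subgroup.card_dvd_of_le h.le

end EPS

end Cfsg.Agent.H444.G2S
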