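import Cfsg.Agent.H444.G2S.Abs
import Cfsg.Agent.H413.JOneSpec
import Cfsg.Agent.H901.EP.PS

/-!
# S5745, cell `g2_spor`: elements of order `19` of `J₁` and (PS) (helper444)
-/

set_option autoImplicit false
set_option linter.unusedSectionVars false

namespace Cfsg.Agent.H444.G2S

open Subgroup Cfsg Cfsg.Agent.H284

/-- the centralizer of an element of order `19` -/
theorem cent19 {y : Spor.J1} (hy : orderOf y = 19) : Nat.card (centralizer ({y} : Set Spor.J1)) = 19 := by
  have hfin : Finite Spor.J1 := Nat.finite_of_card_ne_zero (by rw [Cfsg.Agent.H413.JOneLocal.card_J1]; norm_num)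
  set C := centralizer ({y} : Set Spor.J1) with hC
  have hyC : y ∈ C := Subgroup.mem_centralizer_singleton_iff.2 rfl
  have h19 : 19 ∣ Nat.card C := by
    rw [← hy, ← Subgroup.orderOf_mk y hyC]
    exact orderOf_dvd_natCard _
  have hdvd : Nat.card C ∣ 175560 := by
    rw [← Cfsg.Agent.H413.JOneLocal.card_J1]
    exact C.card_subgroup_dvd_card
  have hpr : ∀ {d : ℕ}, d.Prime → d ∣ Nat.card C → d = 19 := by
    intro d hd hdC
    by_contra hne
    have : Fact d.Prime := ⟨hd⟩
    obtain ⟨g, hg⟩ := exists_prime_orderOf_dvd_card' d hdC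
    have hg' : orderOf (g : Spor.J1) = d := by rw [Subgroup.orderOf_coe, hg]
    have hcomm : Commute (g : Spor.J1) y := Subgroup.mem_centralizer_singleton_iff.1 g.2
    have ho : orderOf ((g : Spor.J1) * y) = d * 19 := by
      rw [hcomm.orderOf_mul_eq_mul_orderOf_of_coprime, hg', hy]
      rw [hg', hy]
      exact (Nat.coprime_primes hd (by norm_num)).2 hne
    have h1 := Cfsg.Agent.H413.JOneSpec.orderOf_mem_J1 ((g : Spor.J1) * y)
    rw [ho] at h1
    have h2 := hd.two_le
    simp only [Finset.mem_insert, Finset.mem_singleton] at h1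
    omega
  have h1 := Nat.eq_prime_pow_of_unique_prime_dvd (n := Nat.card C) Nat.card_pos.ne' hpr
  generalize (Nat.card C).primeFactorsList.length = k at h1
  have hk : k < 2 := by
    by_contra hk
    have h2 : 19 ^ 2 ∣ Nat.card C := by rw [h1]; exact pow_dvd_pow 19 (by omega)
    have h3 := h2.trans hdvd
    norm_num at h3
  interval_cases k
  · rw [h1] at h19
    norm_num at h19
  · rw [h1]
    norm_num

/-- (PS) for `J₁` -/
theorem ps_j1 {Q : Type*} [Group Q] [Finite Q] {A : Subgroup Q} {Γ : Subgroup (MulAut Q)} (h : EPT A Γ)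
    (hab : ∀ K : Subgroup Q, K ≤ A → (∀ a ∈ A, ∀ k ∈ K, a * k * a⁻¹ ∈ K) → (∀ a ∈ K, ∀ b ∈ K, a * b = b * a) → K = ⊥)
    {y : Q} (hy : orderOf y = 19) (hyA : y ∈ A) (hA : Nat.card A = 175560)
    (hC : Nat.card (A ⊓ Subgroup.centralizer {y} : Subgroup Q) = 19)
    {x : Q} (hx : x ∉ A) (hxy : x * y = y * x) :
    ∃ u ∈ A, x⁻¹ * u * x ∈ A ∧ (∃ k : ℕ, u * y * u⁻¹ = y ^ k) ∧ u * y ≠ y * u := by
  refine Cfsg.Agent.H901.EP.ps h hab (s := 19) (e := 2) (by norm_num) Nat.prime_two (by norm_num) hy hyA ?_ ?_ ?_ hx hxy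
  · rw [hA]; norm_num
  · intro l j c hl hl7 hl2 hj hjA hcC hmod
    rw [hC] at hcC
    have hc0 : c = 0 := by
      by_contra hc0
      have h1 : l ∣ 19 := (dvd_pow_self l hc0).trans hcC
      exact hl7 ((Nat.prime_dvd_prime_iff_eq hl (by norm_num)).1 h1)
    rw [hc0, pow_zero] at hmod
    rw [hA] at hjA
    have h1 : l ∣ 175560 := (dvd_pow_self l (by omega)).trans hjA
    have h2 : l = 3 ∨ l = 5 ∨ l = 7 ∨ l = 11 := by
      have h3 : (175560 : ℕ) = 2 ^ 3 * (3 * (5 * (7 * (11 * 19)))) := by norm_num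
      rw [h3, hl.dvd_mul, hl.dvd_mul, hl.dvd_mul, hl.dvd_mul, hl.dvd_mul] at h1
      rcases h1 with h1 | h1 | h1 | h1 | h1 | h1
      · exact absurd ((Nat.prime_dvd_prime_iff_eq hl Nat.prime_two).1 (hl.dvd_of_dvd_pow h1)) hl2
      · exact Or.inl ((Nat.prime_dvd_prime_iff_eq hl Nat.prime_three).1 h1)
      · exact Or.inr (Or.inl ((Nat.prime_dvd_prime_iff_eq hl Nat.prime_five).1 h1))
      · exact Or.inr (Or.inr (Or.inl ((Nat.prime_dvd_prime_iff_eq hl (by norm_num)).1 h1)))
      · exact Or.inr (Or.inr (Or.inr ((Nat.prime_dvd_prime_iff_eq hl (by norm_num)).1 h1)))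
      · exact absurd ((Nat.prime_dvd_prime_iff_eq hl (by norm_num)).1 h1) hl7
    have hj1 : j < 2 := by
      by_contra hj2
      have h3 := (pow_dvd_pow l (by omega : 2 ≤ j)).trans hjA
      rcases h2 with rfl | rfl | rfl | rfl <;> norm_num at h3
    have hj' : j = 1 := by omega
    subst hj'
    rcases h2 with rfl | rfl | rfl | rfl <;> revert hmod <;> decide
  · intro j c hjA hjA' hcC hmod
    rw [hC] at hcC
    rw [hA] at hjA hjA'
    have hc0 : c = 0 := by
      by_contra hc0
      have h1 : 2 ∣ 19 := (dvd_pow_self 2 hc0).trans hcC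
      norm_num at h1
    have hj : j = 3 := by
      have hj8 : j < 4 := by
        by_contra hj4
        have := (pow_dvd_pow 2 (by omega : 4 ≤ j)).trans hjA
        norm_num at this
      by_contra hj7
      apply hjA'
      exact (pow_dvd_pow 2 (by omega : j + 1 ≤ 3)).trans (by norm_num)
    rw [hj, hc0] at hmod
    revert hmod
    decide

/-- transport of the centralizer -/
theorem card_inf_cent {G X : Type*} [Group G] [Group X] {A : Subgroup G} (e : A ≃* X) (y : A) :
    Nat.card (A ⊓ Subgroup.centralizer {(y : G)} : Subgroup G) = Nat.card (centralizer ({e y} : Set X)) := by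
  refine Nat.card_congr ⟨fun g => ⟨e ⟨g.1, g.2.1⟩, ?_⟩, fun g => ⟨(e.symm g.1 : A), (e.symm g.1).2, ?_⟩, ?_, ?_⟩
  · apply Subgroup.mem_centralizer_singleton_iff.2
    rw [← map_mul, ← map_mul]
    congr 1
    exact Subtype.ext (Subgroup.mem_centralizer_singleton_iff.1 g.2.2)
  · apply Subgroup.mem_centralizer_singleton_iff.2
    have h1 : g.1 * e y = e y * g.1 := Subgroup.mem_centralizer_singleton_iff.1 g.2
    have h2 : e.symm g.1 * y = y * e.symm g.1 := by
      apply e.injective
      rw [map_mul, map_mul, e.apply_symm_apply, h1]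
    exact congrArg Subtype.val h2
  · intro g
    apply Subtype.ext
    show ((e.symm (e ⟨g.1, g.2.1⟩) : A) : G) = g.1
    rw [e.symm_apply_apply]
  · intro g
    apply Subtype.ext
    show e ⟨(e.symm g.1 : A), _⟩ = g.1
    rw [Subtype.coe_eta, e.apply_symm_apply]

end Cfsg.Agent.H444.G2S
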